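import Mathlib
import Cfsg.Agent.Lib.Helper35.JR.Defs

/-!
# JR package [FUS] (S3206): in a simple non-abelian group with Sylow 2-subgroups `E₈`, the
normalizer of a Sylow 2-subgroup is transitive on its involutions (transfer + orbit counting).
-/

set_option autoImplicit false

namespace Cfsg.Agent.Lib.Helper76.JR

open Cfsg Cfsg.Agent.Lib.Helper35.JR

universe u

theorem pkgFus : PkgFus.{u} := by
  intro G _ _ _ hnc hS8 S s hs hs1 s' hs' hs'1
  classical
  obtain ⟨hcard, hexp⟩ := hS8 S
  have hinv : ∀ x ∈ (S : Subgroup G), x⁻¹ = x := by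
    intro x hx
    have h1 := hexp x hx
    rw [inv_eq_iff_mul_eq_one, ← sq, h1]
  have hcomm : ∀ x ∈ (S : Subgroup G), ∀ y ∈ (S : Subgroup G), x * y = y * x := by
    intro x hx y hy
    have h3 := hinv (x * y) (mul_mem hx hy)
    rw [mul_inv_rev, hinv x hx, hinv y hy] at h3
    exact h3.symm
  have hodd : Odd (S : Subgroup G).index := by
    have := S.not_dvd_index
    rw [← Nat.not_even_iff_odd, even_iff_two_dvd]; exact this
  have step1 : ∀ x ∈ (S : Subgroup G), x ≠ 1 →
      ¬ (∀ n ∈ Subgroup.normalizer ((S : Subgroup G) : Set G), n * x * n⁻¹ = x) := by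
    intro x hx hx1 hfix
    let _ : CommGroup (S : Subgroup G) :=
      { (inferInstance : Group (S : Subgroup G)) with
        mul_comm := fun a b => Subtype.ext (hcomm a a.2 b b.2) }
    have hpow : ∀ k : ℕ, x ^ k = 1 ∨ x ^ k = x := by
      intro k
      rcases Nat.even_or_odd' k with ⟨m, rfl | rfl⟩
      · left; rw [pow_mul, hexp x hx, one_pow]
      · right; rw [pow_succ, pow_mul, hexp x hx, one_pow, one_mul]
    have hxc : x ∈ Subgroup.centralizer ((S : Subgroup G) : Set G) := by
      rw [Subgroup.mem_centralizer_iff]; intro h hh; exact hcomm h hh x hx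
    have key : ∀ (k : ℕ) (g₀ : G), g₀⁻¹ * x ^ k * g₀ ∈ (S : Subgroup G) →
        g₀⁻¹ * x ^ k * g₀ = x ^ k := by
      intro k g₀ hmem
      rcases hpow k with h | h
      · rw [h]; group
      · rw [h] at hmem ⊢
        have hyc : g₀⁻¹ * x * g₀ ∈ Subgroup.centralizer ((S : Subgroup G) : Set G) := by
          rw [Subgroup.mem_centralizer_iff]; intro h hh; exact hcomm h hh _ hmem
        obtain ⟨n, hn, hneq⟩ := Sylow.conj_eq_normalizer_conj_of_mem_centralizer S x g₀ hxc hyc
        rw [hneq]
        have := hfix n⁻¹ (inv_mem hn)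
        rwa [inv_inv] at this
    have htr := MonoidHom.transfer_eq_pow (ϕ := MonoidHom.id (S : Subgroup G)) x key
    have hxpow : x ^ (S : Subgroup G).index = x := by
      obtain ⟨m, hm⟩ := hodd
      rw [hm, pow_succ, pow_mul, hexp x hx, one_pow, one_mul]
    have hne : MonoidHom.transfer (MonoidHom.id (S : Subgroup G)) x ≠ 1 := by
      rw [htr]
      intro h
      apply hx1
      have h' := congrArg Subtype.val h
      simp only [MonoidHom.id_apply] at h'
      rw [hxpow] at h'
      exact h'
    rcases (MonoidHom.normal_ker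
      (MonoidHom.transfer (MonoidHom.id (S : Subgroup G)))).eq_bot_or_eq_top with hk | hk
    · apply hnc
      have hinj := (MonoidHom.ker_eq_bot_iff _).1 hk
      exact ⟨⟨fun a b => hinj (by rw [map_mul, map_mul, mul_comm])⟩⟩
    · apply hne
      rw [← MonoidHom.mem_ker, hk]; exact Subgroup.mem_top x
  set N := Subgroup.normalizer ((S : Subgroup G) : Set G) with hN
  let act : MulAction N G :=
    MulAction.compHom G ((MulAut.conj : G →* MulAut G).comp N.subtype)
  have smul_def : ∀ (n : N) (g : G), n • g = (n : G) * g * (n : G)⁻¹ := fun n g => rfl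
  have orb_sub : ∀ x ∈ (S : Subgroup G), x ≠ 1 →
      MulAction.orbit N x ⊆ ((S : Subgroup G) : Set G) \ {1} := by
    intro x hx hx1 y hy
    obtain ⟨n, rfl⟩ := hy
    refine ⟨?_, ?_⟩
    · show n • x ∈ (S : Subgroup G)
      rw [smul_def]
      exact (Subgroup.mem_normalizer_iff.1 n.2 x).1 hx
    · show ¬ (n • x = 1)
      rw [smul_def]
      intro h
      apply hx1
      have e : x = (n : G)⁻¹ * ((n : G) * x * (n : G)⁻¹) * (n : G) := by group
      rw [e, h]; group
  have orb_odd : ∀ x ∈ (S : Subgroup G), Odd (MulAction.orbit N x).ncard := by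
    intro x hx
    rw [← MulAction.index_stabilizer]
    have hle : (S : Subgroup G).subgroupOf N ≤ MulAction.stabilizer N x := by
      intro n hn
      rw [MulAction.mem_stabilizer_iff, smul_def]
      have hnS : (n : G) ∈ (S : Subgroup G) := hn
      rw [hcomm _ hnS x hx]; group
    have h1 := Subgroup.index_dvd_of_le hle
    have h2 : ((S : Subgroup G).subgroupOf N).index ∣ (S : Subgroup G).index :=
      Subgroup.relIndex_dvd_index_of_le Subgroup.le_normalizer
    exact Odd.of_dvd_nat hodd (h1.trans h2)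
  have orb_ne1 : ∀ x ∈ (S : Subgroup G), x ≠ 1 → (MulAction.orbit N x).ncard ≠ 1 := by
    intro x hx hx1 h1
    obtain ⟨a, ha⟩ := Set.ncard_eq_one.1 h1
    have hxa : x = a := by
      have : x ∈ MulAction.orbit N x := MulAction.mem_orbit_self x
      rw [ha] at this; exact this
    apply step1 x hx hx1
    intro n hn
    have : (⟨n, hn⟩ : N) • x ∈ MulAction.orbit N x := MulAction.mem_orbit x _
    rw [ha, Set.mem_singleton_iff, ← hxa] at this
    exact this
  have orb_ge3 : ∀ x ∈ (S : Subgroup G), x ≠ 1 → 3 ≤ (MulAction.orbit N x).ncard := by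
    intro x hx hx1
    obtain ⟨m, hm⟩ := orb_odd x hx
    have := orb_ne1 x hx hx1
    omega
  have disj : ∀ x y : G, y ∉ MulAction.orbit N x →
      Disjoint (MulAction.orbit N x) (MulAction.orbit N y) := by
    intro x y hy
    rw [Set.disjoint_left]
    rintro z ⟨n, rfl⟩ ⟨m, hm⟩
    apply hy
    refine ⟨m⁻¹ * n, ?_⟩
    show (m⁻¹ * n) • x = y
    have hm' : m • y = n • x := hm
    rw [mul_smul, ← hm', inv_smul_smul]
  have hT : (((S : Subgroup G) : Set G) \ {1}).ncard = 7 := by
    rw [Set.ncard_sdiff_singleton_of_mem (one_mem _)]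
    have : ((S : Subgroup G) : Set G).ncard = 8 := by
      rw [← Nat.card_coe_set_eq]; exact hcard
    rw [this]
  by_contra hcon
  have hs'orb : s' ∉ MulAction.orbit N s := by
    rintro ⟨n, hn⟩
    exact hcon ⟨n, n.2, hn⟩
  have hd := disj s s' hs'orb
  have hA := orb_ge3 s hs hs1
  have hB := orb_ge3 s' hs' hs'1
  have hAB : (MulAction.orbit N s ∪ MulAction.orbit N s').ncard
      = (MulAction.orbit N s).ncard + (MulAction.orbit N s').ncard := Set.ncard_union_eq hd
  have hsub : MulAction.orbit N s ∪ MulAction.orbit N s' ⊆ ((S : Subgroup G) : Set G) \ {1} :=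
    Set.union_subset (orb_sub s hs hs1) (orb_sub s' hs' hs'1)
  have hle := Set.ncard_le_ncard hsub
  rw [hT, hAB] at hle
  have hex : ∃ r ∈ ((S : Subgroup G) : Set G) \ {1},
      r ∉ MulAction.orbit N s ∪ MulAction.orbit N s' := by
    by_contra hno
    push Not at hno
    have h7 := Set.ncard_le_ncard
      (hno : ((S : Subgroup G) : Set G) \ {1} ⊆ MulAction.orbit N s ∪ MulAction.orbit N s')
    rw [hT, hAB] at h7
    obtain ⟨m1, h1⟩ := orb_odd s hs
    obtain ⟨m2, h2⟩ := orb_odd s' hs'
    omega
  obtain ⟨r, hr, hrn⟩ := hex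
  have hrS : r ∈ (S : Subgroup G) := hr.1
  have hr1 : r ≠ 1 := fun h => hr.2 (by simp [h])
  have hC := orb_ge3 r hrS hr1
  have hd1 := disj s r (fun h => hrn (Or.inl h))
  have hd2 := disj s' r (fun h => hrn (Or.inr h))
  have hABC : ((MulAction.orbit N s ∪ MulAction.orbit N s') ∪ MulAction.orbit N r).ncard
      = (MulAction.orbit N s ∪ MulAction.orbit N s').ncard + (MulAction.orbit N r).ncard :=
    Set.ncard_union_eq (Set.disjoint_union_left.2 ⟨hd1, hd2⟩)
  have hsub2 : (MulAction.orbit N s ∪ MulAction.orbit N s') ∪ MulAction.orbit N r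
      ⊆ ((S : Subgroup G) : Set G) \ {1} := Set.union_subset hsub (orb_sub r hrS hr1)
  have hle2 := Set.ncard_le_ncard hsub2
  rw [hT, hABC, hAB] at hle2
  omega

end Cfsg.Agent.Lib.Helper76.JR
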